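import Mathlib
import Cfsg.Agent.Lib.Helper35.JR.Defs

/-!
# JR package [MULT] (S3206): no perfect central 2-extension
-/

set_option autoImplicit false

namespace Cfsg.Agent.Lib.Helper72.JR

open Cfsg.Agent.Lib.Helper35.JR

open scoped commutatorElement

universe u

theorem comm_mul_left72 {L : Type*} [Group L] (a b c : L)
    (h : ∀ g : L, g * ⁅b, c⁆ = ⁅b, c⁆ * g) : ⁅a * b, c⁆ = ⁅a, c⁆ * ⁅b, c⁆ := by
  calc ⁅a * b, c⁆ = a * ⁅b, c⁆ * (c * a⁻¹ * c⁻¹) := by
        simp only [commutatorElement_def]; group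
    _ = ⁅b, c⁆ * a * (c * a⁻¹ * c⁻¹) := by rw [h a]
    _ = ⁅b, c⁆ * ⁅a, c⁆ := by simp only [commutatorElement_def]; group
    _ = ⁅a, c⁆ * ⁅b, c⁆ := (h _).symm

theorem comm_mul_right72 {L : Type*} [Group L] (a b c : L)
    (h : ∀ g : L, g * ⁅a, c⁆ = ⁅a, c⁆ * g) : ⁅a, b * c⁆ = ⁅a, b⁆ * ⁅a, c⁆ := by
  calc ⁅a, b * c⁆ = a * b * a⁻¹ * (⁅a, c⁆ * b⁻¹) := by
        simp only [commutatorElement_def]; group
    _ = a * b * a⁻¹ * (b⁻¹ * ⁅a, c⁆) := by rw [← h b⁻¹]
    _ = ⁅a, b⁆ * ⁅a, c⁆ := by simp only [commutatorElement_def]; group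

theorem comm_congr_right72 {L G : Type*} [Group L] [Group G] (π : L →* G)
    (hker : π.ker ≤ Subgroup.center L) (u v v' : L) (h : π v = π v') : ⁅u, v⁆ = ⁅u, v'⁆ := by
  have hz : v⁻¹ * v' ∈ Subgroup.center L :=
    hker (by rw [MonoidHom.mem_ker, map_mul, map_inv, h, inv_mul_cancel])
  have hz' := Subgroup.mem_center_iff.mp hz
  have h1 : ⁅u, v⁻¹ * v'⁆ = 1 := commutatorElement_eq_one_iff_mul_comm.mpr (hz' u)
  have h2 : ⁅u, v * (v⁻¹ * v')⁆ = ⁅u, v⁆ * ⁅u, v⁻¹ * v'⁆ :=
    comm_mul_right72 u v (v⁻¹ * v') (by rw [h1]; intro g; simp)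
  rw [h1, mul_one, mul_inv_cancel_left] at h2
  exact h2.symm

theorem comm_congr_left72 {L G : Type*} [Group L] [Group G] (π : L →* G)
    (hker : π.ker ≤ Subgroup.center L) (u u' v : L) (h : π u = π u') : ⁅u, v⁆ = ⁅u', v⁆ := by
  have h1 := comm_congr_right72 π hker v u u' h
  rw [← commutatorElement_inv v u, ← commutatorElement_inv v u', h1]

theorem units_sq72 (a b : ℂˣ) (ha : a ^ 2 = 1) (hb : b ^ 2 = 1) (ha1 : a ≠ 1) (hb1 : b ≠ 1) :
    a * b = 1 := by
  have h1 : ∀ c : ℂˣ, c ^ 2 = 1 → c ≠ 1 → (c : ℂ) = -1 := by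
    intro c hc hc1
    have h2 : (c : ℂ) ^ 2 = 1 := by
      have h3 := congrArg (fun u : ℂˣ => (u : ℂ)) hc
      simpa using h3
    have h4 : ((c : ℂ) - 1) * ((c : ℂ) + 1) = 0 := by linear_combination h2
    rcases mul_eq_zero.mp h4 with h5 | h5
    · exact absurd (Units.ext (sub_eq_zero.mp h5)) hc1
    · exact eq_neg_of_add_eq_zero_left h5
  apply Units.ext
  rw [Units.val_mul, h1 a ha ha1, h1 b hb hb1]
  norm_num

/-- the commutator form on the preimage of a Sylow 2-subgroup is trivial modulo `K`. -/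
theorem form_trivial72 {G : Type u} [Group G] [Finite G] (hS8 : S8 G) (hFus : Fus G)
    {L : Type} [Group L] (π : L →* G) (hπ : Function.Surjective π) (S : Sylow 2 G)
    (hker : π.ker ≤ Subgroup.center L) (K : Subgroup L) (_hK : K ≤ π.ker)
    (hK2 : ∀ a b : L, a ∈ π.ker → b ∈ π.ker → a ^ 2 = 1 → b ^ 2 = 1 → a ∉ K → b ∉ K →
      a * b ∈ K)
    (x y : L) (hx : π x ∈ (S : Subgroup G)) (hy : π y ∈ (S : Subgroup G)) : ⁅x, y⁆ ∈ K := by
  classical
  by_contra hxy
  have hcard := (hS8 S).1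
  have hexp := (hS8 S).2
  have hab : ∀ a ∈ (S : Subgroup G), ∀ b ∈ (S : Subgroup G), a * b = b * a := by
    intro a ha b hb
    have h1 : a * a = 1 := by rw [← pow_two]; exact hexp a ha
    have h2 : b * b = 1 := by rw [← pow_two]; exact hexp b hb
    have h3 : a * b * (a * b) = 1 := by rw [← pow_two]; exact hexp _ (mul_mem ha hb)
    calc a * b = (a * b)⁻¹ := eq_inv_of_mul_eq_one_left h3
      _ = b⁻¹ * a⁻¹ := mul_inv_rev a b
      _ = b * a := by rw [inv_eq_of_mul_eq_one_right h1, inv_eq_of_mul_eq_one_right h2]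
  have hZ : ∀ u v : L, π u ∈ (S : Subgroup G) → π v ∈ (S : Subgroup G) → ⁅u, v⁆ ∈ π.ker := by
    intro u v hu hv
    rw [MonoidHom.mem_ker, map_commutatorElement]
    exact commutatorElement_eq_one_iff_mul_comm.mpr (hab _ hu _ hv)
  have hcen : ∀ u v : L, π u ∈ (S : Subgroup G) → π v ∈ (S : Subgroup G) →
      ∀ g : L, g * ⁅u, v⁆ = ⁅u, v⁆ * g :=
    fun u v hu hv => Subgroup.mem_center_iff.mp (hker (hZ u v hu hv))
  have hsq : ∀ u v : L, π u ∈ (S : Subgroup G) → π v ∈ (S : Subgroup G) → ⁅u, v⁆ ^ 2 = 1 := by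
    intro u v hu hv
    rw [pow_two, ← comm_mul_left72 u u v (hcen u v hu hv)]
    have h1 : u * u ∈ Subgroup.center L := hker (by
      rw [MonoidHom.mem_ker, map_mul, ← pow_two]; exact hexp _ hu)
    exact commutatorElement_eq_one_iff_mul_comm.mpr ((Subgroup.mem_center_iff.mp h1 v).symm)
  have hyx : ⁅y, x⁆ ∉ K := by
    intro h
    apply hxy
    rw [← commutatorElement_inv y x]
    exact K.inv_mem h
  have hx1 : π x ≠ 1 := by
    intro h
    apply hxy
    rw [comm_congr_left72 π hker x 1 y (by rw [h, map_one]), commutatorElement_one_left]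
    exact K.one_mem
  have hy1 : π y ≠ 1 := by
    intro h
    apply hxy
    rw [comm_congr_right72 π hker x y 1 (by rw [h, map_one]), commutatorElement_one_right]
    exact K.one_mem
  have hyx' : π y ≠ π x := by
    intro h
    apply hxy
    rw [comm_congr_right72 π hker x y x h, commutatorElement_self]
    exact K.one_mem
  have hxy1 : π x * π y ≠ 1 := by
    intro h
    apply hxy
    have h1 : ⁅x, x * y⁆ = ⁅x, x⁆ * ⁅x, y⁆ := comm_mul_right72 x x y (hcen x y hx hy)
    rw [commutatorElement_self, one_mul] at h1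
    rw [← h1, comm_congr_right72 π hker x (x * y) 1 (by rw [map_mul, h, map_one]),
      commutatorElement_one_right]
    exact K.one_mem
  -- an element outside the span
  obtain ⟨s, hsS, hsV⟩ : ∃ s ∈ (S : Subgroup G),
      s ∉ ({1, (π y)⁻¹, (π x)⁻¹, (π y * π x)⁻¹} : Finset G) := by
    by_contra hcon
    push Not at hcon
    have h1 : Nat.card (S : Subgroup G) ≤ 4 := by
      have h2 : ((S : Subgroup G) : Set G)
          ⊆ (({1, (π y)⁻¹, (π x)⁻¹, (π y * π x)⁻¹} : Finset G) : Set G) := fun g hg => hcon g hg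
      have h3 := Set.ncard_le_ncard h2 (Finset.finite_toSet _)
      rw [Set.ncard_coe_finset] at h3
      exact h3.trans Finset.card_le_four
    omega
  obtain ⟨w, rfl⟩ := hπ s
  obtain ⟨r₁, hr₁S, hr₁x, hr₁π⟩ : ∃ r₁ : L, π r₁ ∈ (S : Subgroup G) ∧ ⁅r₁, x⁆ ∈ K ∧
      (π r₁ = π w ∨ π r₁ = π w * π y) := by
    by_cases h : ⁅w, x⁆ ∈ K
    · exact ⟨w, hsS, h, Or.inl rfl⟩
    · refine ⟨w * y, ?_, ?_, Or.inr (map_mul π w y)⟩
      · rw [map_mul]; exact mul_mem hsS hy
      · rw [comm_mul_left72 w y x (hcen y x hy hx)]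
        exact hK2 _ _ (hZ w x hsS hx) (hZ y x hy hx) (hsq w x hsS hx) (hsq y x hy hx) h hyx
  obtain ⟨r, hrS, hrx, hry, hrπ⟩ : ∃ r : L, π r ∈ (S : Subgroup G) ∧ ⁅r, x⁆ ∈ K ∧ ⁅r, y⁆ ∈ K ∧
      π r ≠ 1 := by
    by_cases h : ⁅r₁, y⁆ ∈ K
    · refine ⟨r₁, hr₁S, hr₁x, h, ?_⟩
      rcases hr₁π with h1 | h1
      · rw [h1]
        intro h2
        apply hsV
        rw [h2]
        simp
      · rw [h1]
        intro h2
        apply hsV
        rw [eq_inv_of_mul_eq_one_left h2]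
        simp
    · refine ⟨r₁ * x, ?_, ?_, ?_, ?_⟩
      · rw [map_mul]; exact mul_mem hr₁S hx
      · rw [comm_mul_left72 r₁ x x (hcen x x hx hx), commutatorElement_self, mul_one]
        exact hr₁x
      · rw [comm_mul_left72 r₁ x y (hcen x y hx hy)]
        exact hK2 _ _ (hZ r₁ y hr₁S hy) (hZ x y hx hy) (hsq r₁ y hr₁S hy) (hsq x y hx hy) h hxy
      · rw [map_mul]
        rcases hr₁π with h1 | h1
        · rw [h1]
          intro h2
          apply hsV
          rw [eq_inv_of_mul_eq_one_left h2]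
          simp
        · rw [h1]
          intro h2
          apply hsV
          have h3 : π w * (π y * π x) = 1 := by rw [← mul_assoc]; exact h2
          rw [eq_inv_of_mul_eq_one_left h3]
          simp
  have hrr : ⁅r, r⁆ ∈ K := by rw [commutatorElement_self]; exact K.one_mem
  have hr_x : π r ≠ π x := by
    intro h
    apply hxy
    rw [← comm_congr_left72 π hker r x y h]
    exact hry
  have hr_y : π r ≠ π y := by
    intro h
    apply hyx
    rw [← comm_congr_left72 π hker r y x h]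
    exact hrx
  have hr_xy : π r ≠ π x * π y := by
    intro h
    apply hyx
    have h1 : ⁅x * y, x⁆ = ⁅x, x⁆ * ⁅y, x⁆ := comm_mul_left72 x y x (hcen y x hy hx)
    rw [commutatorElement_self, one_mul] at h1
    rw [← h1, ← comm_congr_left72 π hker r (x * y) x (by rw [map_mul, h])]
    exact hrx
  -- the orthogonal complement of `r`
  let C : Subgroup L :=
    { carrier := {v | π v ∈ (S : Subgroup G) ∧ ⁅r, v⁆ ∈ K}
      one_mem' := ⟨by rw [map_one]; exact one_mem _,
        by rw [commutatorElement_one_right]; exact K.one_mem⟩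
      mul_mem' := by
        rintro a b ⟨ha, ha'⟩ ⟨hb, hb'⟩
        refine ⟨by rw [map_mul]; exact mul_mem ha hb, ?_⟩
        rw [comm_mul_right72 r a b (hcen r b hrS hb)]
        exact K.mul_mem ha' hb'
      inv_mem' := by
        rintro a ⟨ha, ha'⟩
        have hai : π a⁻¹ ∈ (S : Subgroup G) := by rw [map_inv]; exact inv_mem ha
        refine ⟨hai, ?_⟩
        have h1 : ⁅r, a * a⁻¹⁆ = ⁅r, a⁆ * ⁅r, a⁻¹⁆ := comm_mul_right72 r a a⁻¹ (hcen r a⁻¹ hrS hai)
        rw [mul_inv_cancel, commutatorElement_one_right] at h1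
        have h2 : ⁅r, a⁻¹⁆ = ⁅r, a⁆⁻¹ := (inv_eq_of_mul_eq_one_right h1.symm).symm
        rw [h2]
        exact K.inv_mem ha' }
  have hxC : x ∈ C := ⟨hx, hrx⟩
  have hyC : y ∈ C := ⟨hy, hry⟩
  have hrC : r ∈ C := ⟨hrS, hrr⟩
  have hDS : C.map π ≤ (S : Subgroup G) := by
    rintro _ ⟨v, hv, rfl⟩
    exact hv.1
  have c1 : ({1} : Finset G).card = 1 := Finset.card_singleton 1
  have c2 : (insert (π x) ({1} : Finset G)).card = 2 := by
    rw [Finset.card_insert_of_notMem (by simpa using hx1), c1]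
  have c3 : (insert (π y) (insert (π x) ({1} : Finset G))).card = 3 := by
    rw [Finset.card_insert_of_notMem (by simp [hy1, hyx']), c2]
  have c4 : (insert (π x * π y) (insert (π y) (insert (π x) ({1} : Finset G)))).card = 4 := by
    rw [Finset.card_insert_of_notMem (by simp [hx1, hy1, hxy1]), c3]
  have c5 : (insert (π r) (insert (π x * π y) (insert (π y)
      (insert (π x) ({1} : Finset G))))).card = 5 := by
    rw [Finset.card_insert_of_notMem (by simp [hr_xy, hr_y, hr_x, hrπ]), c4]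
  have hsub : ((insert (π r) (insert (π x * π y) (insert (π y)
      (insert (π x) ({1} : Finset G)))) : Finset G) : Set G) ⊆ ((C.map π : Subgroup G) : Set G) := by
    intro g hg
    simp only [Finset.coe_insert, Finset.coe_singleton, Set.mem_insert_iff,
      Set.mem_singleton_iff] at hg
    rcases hg with rfl | rfl | rfl | rfl | rfl
    · exact Subgroup.mem_map_of_mem π hrC
    · exact (C.map π).mul_mem (Subgroup.mem_map_of_mem π hxC) (Subgroup.mem_map_of_mem π hyC)
    · exact Subgroup.mem_map_of_mem π hyC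
    · exact Subgroup.mem_map_of_mem π hxC
    · exact (C.map π).one_mem
  have h5 : 5 ≤ Nat.card (C.map π : Subgroup G) := by
    have h1 := Set.ncard_le_ncard hsub (Set.toFinite _)
    rw [Set.ncard_coe_finset, c5] at h1
    exact h1
  have hD8 : Nat.card (C.map π : Subgroup G) = 8 := by
    have h1 : Nat.card (C.map π : Subgroup G) ∣ 2 ^ 3 := by
      have h2 := Subgroup.card_dvd_of_le hDS
      rw [hcard] at h2
      exact h2
    obtain ⟨m, hm, hDm⟩ := (Nat.dvd_prime_pow Nat.prime_two).mp h1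
    have hm3 : m = 3 := by
      by_contra hne
      have h6 : m ≤ 2 := by omega
      have h7 : 2 ^ m ≤ 2 ^ 2 := Nat.pow_le_pow_right (by norm_num) h6
      rw [hDm] at h5
      omega
    have h8 : (2 : ℕ) ^ 3 = 8 := by norm_num
    rw [hDm, hm3, h8]
  have hDeq : (C.map π : Subgroup G) = (S : Subgroup G) :=
    Subgroup.eq_of_le_of_card_ge hDS (by rw [hD8, hcard])
  have hrad : ∀ v : L, π v ∈ (S : Subgroup G) → ⁅r, v⁆ ∈ K := by
    intro v hv
    rw [← hDeq] at hv
    obtain ⟨v', hv', hvv'⟩ := hv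
    rw [comm_congr_right72 π hker r v v' hvv'.symm]
    exact hv'.2
  obtain ⟨nb, hnb, hconj⟩ := hFus S (π r) hrS hrπ (π x) hx hx1
  obtain ⟨n, rfl⟩ := hπ nb
  have h1 : π (n * r * n⁻¹) = π x := by rw [map_mul, map_mul, map_inv]; exact hconj
  apply hxy
  rw [← comm_congr_left72 π hker (n * r * n⁻¹) x y h1]
  have h2 : π (n⁻¹ * y * n) ∈ (S : Subgroup G) := by
    rw [map_mul, map_mul, map_inv]
    have h3 : π n * ((π n)⁻¹ * π y * π n) * (π n)⁻¹ = π y := by group
    exact (Subgroup.mem_normalizer_iff.mp hnb _).mpr (by rw [h3]; exact hy)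
  have h4 : ⁅n * r * n⁻¹, y⁆ = n * ⁅r, n⁻¹ * y * n⁆ * n⁻¹ := by
    simp only [commutatorElement_def]; group
  rw [h4]
  have h6 : n * ⁅r, n⁻¹ * y * n⁆ = ⁅r, n⁻¹ * y * n⁆ * n := hcen r _ hrS h2 n
  rw [h6, mul_inv_cancel_right]
  exact hrad _ h2

theorem pkgMult : PkgMult.{u} := by
  intro G _ _ hS8 hFus L _ _ Z hZn hperf hZc hZ2 ⟨e⟩
  classical
  obtain ⟨S⟩ : Nonempty (Sylow 2 G) := inferInstance
  let π : L →* G := e.toMonoidHom.comp (QuotientGroup.mk' Z)
  have hπ : Function.Surjective π := e.surjective.comp (QuotientGroup.mk'_surjective Z)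
  have hkerZ : π.ker = Z := by
    ext g
    rw [MonoidHom.mem_ker]
    show e (QuotientGroup.mk' Z g) = 1 ↔ g ∈ Z
    rw [MulEquiv.map_eq_one_iff]
    exact QuotientGroup.eq_one_iff g
  have hker : π.ker ≤ Subgroup.center L := hkerZ ▸ hZc
  have hcomm : ∀ x y : L, π x ∈ (S : Subgroup G) → π y ∈ (S : Subgroup G) → x * y = y * x := by
    intro x y hx hy
    by_contra hne
    have hz1 : ⁅x, y⁆ ≠ 1 := fun h => hne (commutatorElement_eq_one_iff_mul_comm.mp h)
    have hzZ : ⁅x, y⁆ ∈ Z := by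
      have h1 := form_trivial72 hS8 hFus π hπ S hker π.ker le_rfl
        (fun a b ha _ _ _ hna _ => absurd ha hna) x y hx hy
      rw [hkerZ] at h1
      exact h1
    let : CommGroup ↥Z := { (inferInstance : Group ↥Z) with
      mul_comm := fun a b => Subtype.ext (Subgroup.mem_center_iff.mp (hZc b.2) a.1) }
    have hne0 : ((Monoid.exponent ↥Z : ℕ) : ℂ) ≠ 0 := by
      exact_mod_cast Monoid.exponent_ne_zero_of_finite
    have : NeZero ((Monoid.exponent ↥Z : ℕ) : ℂ) := ⟨hne0⟩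
    obtain ⟨χ, hχ⟩ := CommGroup.exists_apply_ne_one_of_hasEnoughRootsOfUnity ↥Z ℂ
      (a := ⟨⁅x, y⁆, hzZ⟩) (by
        intro h
        exact hz1 (congrArg Subtype.val h))
    have hKZ : χ.ker.map Z.subtype ≤ π.ker := by
      rw [hkerZ]
      exact Subgroup.map_subtype_le _
    have hmemK : ∀ (a : L) (ha : a ∈ Z), a ∈ χ.ker.map Z.subtype ↔ χ ⟨a, ha⟩ = 1 := by
      intro a ha
      constructor
      · rintro ⟨k, hk, hka⟩
        have h1 : k = ⟨a, ha⟩ := Subtype.ext hka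
        rw [← h1]
        exact MonoidHom.mem_ker.mp hk
      · intro h
        exact ⟨⟨a, ha⟩, MonoidHom.mem_ker.mpr h, rfl⟩
    have hK2 : ∀ a b : L, a ∈ π.ker → b ∈ π.ker → a ^ 2 = 1 → b ^ 2 = 1 →
        a ∉ χ.ker.map Z.subtype → b ∉ χ.ker.map Z.subtype → a * b ∈ χ.ker.map Z.subtype := by
      intro a b ha hb ha2 hb2 haK hbK
      rw [hkerZ] at ha hb
      rw [hmemK a ha] at haK
      rw [hmemK b hb] at hbK
      rw [hmemK (a * b) (Z.mul_mem ha hb)]
      have h1 : χ ⟨a * b, Z.mul_mem ha hb⟩ = χ ⟨a, ha⟩ * χ ⟨b, hb⟩ := by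
        rw [← map_mul]
        rfl
      rw [h1]
      apply units_sq72 _ _ _ _ haK hbK
      · rw [← map_pow]
        have h2 : (⟨a, ha⟩ : ↥Z) ^ 2 = 1 := Subtype.ext ha2
        rw [h2, map_one]
      · rw [← map_pow]
        have h2 : (⟨b, hb⟩ : ↥Z) ^ 2 = 1 := Subtype.ext hb2
        rw [h2, map_one]
    have h3 := form_trivial72 hS8 hFus π hπ S hker (χ.ker.map Z.subtype) hKZ hK2 x y hx hy
    exact hχ ((hmemK _ hzZ).mp h3)
  -- the transfer
  obtain ⟨Sh, hSh⟩ : ∃ Sh : Subgroup L, Sh = (S : Subgroup G).comap π := ⟨_, rfl⟩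
  have hShmem : ∀ g : L, g ∈ Sh ↔ π g ∈ (S : Subgroup G) := by
    intro g
    rw [hSh]
    exact Subgroup.mem_comap
  let : CommGroup ↥Sh := { (inferInstance : Group ↥Sh) with
    mul_comm := fun a b => Subtype.ext
      (hcomm a.1 b.1 ((hShmem _).mp a.2) ((hShmem _).mp b.2)) }
  rw [eq_bot_iff]
  intro z hz
  rw [Subgroup.mem_bot]
  have key : ∀ (k : ℕ) (g₀ : L), g₀⁻¹ * z ^ k * g₀ ∈ Sh → g₀⁻¹ * z ^ k * g₀ = z ^ k := by
    intro k g₀ _
    have h1 : g₀ * z ^ k = z ^ k * g₀ :=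
      Subgroup.mem_center_iff.mp ((Subgroup.center L).pow_mem (hZc hz) k) g₀
    rw [mul_assoc, ← h1, inv_mul_cancel_left]
  have htr := MonoidHom.transfer_eq_pow (MonoidHom.id ↥Sh) z key
  have htriv : MonoidHom.transfer (MonoidHom.id ↥Sh) z = 1 := by
    have h1 : z ∈ (MonoidHom.transfer (MonoidHom.id ↥Sh)).ker := by
      have h2 := Abelianization.commutator_subset_ker (MonoidHom.transfer (MonoidHom.id ↥Sh))
      rw [hperf] at h2
      exact h2 (Subgroup.mem_top z)
    exact MonoidHom.mem_ker.mp h1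
  rw [htriv] at htr
  have hpow : z ^ Sh.index = 1 := by
    have h1 := congrArg Subtype.val htr
    simpa using h1.symm
  have hidx : Sh.index = (S : Subgroup G).index := by
    rw [hSh]
    exact Subgroup.index_comap_of_surjective _ hπ
  have hnd : ¬ 2 ∣ (S : Subgroup G).index := Sylow.not_dvd_index S
  obtain ⟨k, hk⟩ := hZ2 ⟨z, hz⟩
  have hk' : z ^ 2 ^ k = 1 := by
    have h1 := congrArg Subtype.val hk
    simpa using h1
  have h1 : orderOf z ∣ Sh.index := orderOf_dvd_of_pow_eq_one hpow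
  have h2 : orderOf z ∣ 2 ^ k := orderOf_dvd_of_pow_eq_one hk'
  have hcop : Nat.Coprime Sh.index (2 ^ k) := by
    rw [hidx]
    exact Nat.Coprime.pow_right k
      (Nat.Coprime.symm ((Nat.Prime.coprime_iff_not_dvd Nat.prime_two).mpr hnd))
  exact orderOf_eq_one_iff.mp (Nat.eq_one_of_dvd_coprimes hcop h1 h2)

end Cfsg.Agent.Lib.Helper72.JR
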